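import Cfsg.Agent.BlkWat.Trace
import Cfsg.Agent.BrauerPairs.AbelianLocal
import Cfsg.Agent.BlkChar.AbelianWeight

/-!
# A block with abelian defect group and the centraliser of an element fixed by the inertia group
-/

noncomputable section

set_option autoImplicit false
set_option maxHeartbeats 400000
set_option linter.unusedSectionVars false
set_option linter.style.haveILetI false

namespace Cfsg.Agent.BlkWat

open Cfsg Cfsg.Agent.BrauerPairs
open scoped Classical

universe u

variable {p : ℕ} [Fact p.Prime] {M : Ideal AlgInt} [M.IsPrime] [CharP (Block.ResF M) p]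

section General

variable {G : Type u} [Group G] [Finite G]

/-- Subgroups of the defect group with the same centraliser have blocks of the same rank. -/
theorem rkAt_eq_of_centralizer_eq {a : PairIdx M G} (ha : IsPGroup p a.1)
    (hab : ∀ x ∈ a.1, ∀ y ∈ a.1, x * y = y * x) {Q R : Subgroup G} (hQR : Q ≤ R) (hR : R ≤ a.1)
    (hC : Subgroup.centralizer (Q : Set G) = Subgroup.centralizer (R : Set G)) :
    rkAt p a Q = rkAt p a R := by
  obtain ⟨g, hg, -⟩ := existsUnique_sle (S := pairSys M G) (b := a) (Q := R) ha hR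
  obtain ⟨f, hf, -⟩ := existsUnique_sle (S := pairSys M G) (b := a) (Q := Q) ha (hQR.trans hR)
  have hs : SLE (pairSys M G) p ⟨Q, f⟩ ⟨R, g⟩ := sle_of_sle_of_le ha hf hg hQR
  have hn := nsub_of_sle_of_le_normalizer (ha.to_le hR) hs
    ((hR.trans (le_centralizer_of_abelian hab (hQR.trans hR))).trans
      (Subgroup.centralizer_le_normalizer _))
  rw [rkAt_eq ha hf, rkAt_eq ha hg]
  have hh := blockRank_eq_of_nsub hn hC
  exact hh

/-- The pair below a maximal pair, seen in the centraliser of a part of the defect group. -/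
theorem exists_local_maxPair {B : Set (IrrCharacter G)} {P : Subgroup G}
    {e : Blk M (Subgroup.centralizer (P : Set G))} (hm : IsMaximalBrauerPair p M B P e.1)
    (hab : ∀ x ∈ P, ∀ y ∈ P, x * y = y * x) {S : Subgroup G}
    {f : Blk M (Subgroup.centralizer (S : Set G))}
    (hn : NSub (pairSys M G) p ⟨S, f⟩ ⟨P, e⟩) :
    ∃ (R' : Subgroup (Subgroup.centralizer (S : Set G)))
      (r : Blk M (Subgroup.centralizer (R' : Set (Subgroup.centralizer (S : Set G))))),
      Lifts (Subgroup.centralizer (S : Set G)) ⟨R', r⟩ (⟨P, e⟩ : PairIdx M G) ∧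
      IsMaximalBrauerPair p M f.1 R' r.1 ∧ (∀ x ∈ R', ∀ y ∈ R', x * y = y * x) := by
  have hPC : P ≤ Subgroup.centralizer (S : Set G) := le_centralizer_of_abelian hab hn.2.1
  have hCC : Subgroup.centralizer (P : Set G) ≤ Subgroup.centralizer (S : Set G) :=
    centralizer_anti hn.2.1
  obtain ⟨⟨R', r⟩, hl⟩ := exists_lifts_down (L := Subgroup.centralizer (S : Set G))
    (⟨P, e⟩ : PairIdx M G) hPC hCC
  have hR : R'.map (Subgroup.centralizer (S : Set G)).subtype = P := hl.1
  have hpair : PairOf (blockSysTop M) (pairSys M (Subgroup.centralizer (S : Set G))) p f ⟨R', r⟩ :=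
    hl.pairOf (E := f) rfl hn
  have hne : NoExt p (⟨R', r⟩ : PairIdx M (Subgroup.centralizer (S : Set G))) := by
    intro d hd
    obtain ⟨d₀, hd₀⟩ := exists_lifts_up (L := Subgroup.centralizer (S : Set G)) d
      ((centralizer_anti (by rw [← hR]; exact Subgroup.map_mono hd.2.1)).trans hCC)
    have hG := hl.nsub hd₀ hd
    have hpB : PairOf (blockSysTop M) (pairSys M G) p (⟨B, hm.1.2.1⟩ : Blk M G) ⟨P, e⟩ :=
      (maxPair_of hm).1
    have h2 := noExt_of_isDef hpB (maxPair_of hm).isDef _ hG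
    rw [← hd₀.1] at h2
    exact Subgroup.map_injective (Subgroup.centralizer (S : Set G)).subtype_injective
      (h2.trans hR.symm)
  have hDef := isDef_of_noExt hpair hne
  exact ⟨R', r, hl, (isMaximalBrauerPair_iff f ⟨R', r⟩).2 (maxPair_of_isDef hpair hDef),
    fun x hx y hy => Subtype.ext
      (hab _ (hR ▸ Subgroup.mem_map_of_mem _ hx) _ (hR ▸ Subgroup.mem_map_of_mem _ hy))⟩

/-- The ranks of the local blocks of `C(S)` are those of the blocks at the joins with `S`. -/
theorem rkAt_lifts {a : PairIdx M G} (ha : IsPGroup p a.1)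
    (hab : ∀ x ∈ a.1, ∀ y ∈ a.1, x * y = y * x) {S : Subgroup G} (hS : S ≤ a.1)
    {a' : PairIdx M (Subgroup.centralizer (S : Set G))}
    (hl : Lifts (Subgroup.centralizer (S : Set G)) a' a)
    {Q' : Subgroup (Subgroup.centralizer (S : Set G))} (hQ' : Q' ≤ a'.1) :
    rkAt p a' Q' = rkAt p a (S ⊔ Q'.map (Subgroup.centralizer (S : Set G)).subtype) := by
  have hSL : S ≤ (Subgroup.centralizer (S : Set G)) := hS.trans (le_centralizer_of_abelian hab hS)
  have ha' : IsPGroup p a'.1 :=
    (ha.comap_of_injective _ (Subgroup.centralizer (S : Set G)).subtype_injective).to_le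
      (by rw [← hl.1]; exact Subgroup.le_comap_map _ _)
  have hab' : ∀ x ∈ a'.1, ∀ y ∈ a'.1, x * y = y * x := fun x hx y hy =>
    Subtype.ext (hab _ (hl.1 ▸ Subgroup.mem_map_of_mem _ hx) _ (hl.1 ▸ Subgroup.mem_map_of_mem _ hy))
  have hS' : S.subgroupOf (Subgroup.centralizer (S : Set G)) ≤ a'.1 := by
    intro x hx
    rw [← Subgroup.mem_map_iff_mem (Subgroup.centralizer (S : Set G)).subtype_injective, hl.1]
    exact hS hx
  have hcen : Subgroup.centralizer (Q' : Set (Subgroup.centralizer (S : Set G))) =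
      Subgroup.centralizer ((S.subgroupOf (Subgroup.centralizer (S : Set G)) ⊔ Q' : Subgroup (Subgroup.centralizer (S : Set G))) : Set (Subgroup.centralizer (S : Set G))) := by
    refine le_antisymm (fun y hy => ?_) (centralizer_anti le_sup_right)
    rw [Subgroup.mem_centralizer_iff]
    have h : S.subgroupOf (Subgroup.centralizer (S : Set G)) ⊔ Q' ≤ Subgroup.centralizer ({y} : Set (Subgroup.centralizer (S : Set G))) := by
      refine sup_le (fun s hs => ?_) fun q hq => ?_
      · rw [Subgroup.mem_centralizer_singleton_iff]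
        exact Subtype.ext (Subgroup.mem_centralizer_iff.1 y.2 (s : G) hs)
      · rw [Subgroup.mem_centralizer_singleton_iff]
        exact Subgroup.mem_centralizer_iff.1 hy q hq
    exact fun x hx => Subgroup.mem_centralizer_singleton_iff.1 (h hx)
  rw [rkAt_eq_of_centralizer_eq ha' hab' le_sup_right (sup_le hS' hQ') hcen]
  obtain ⟨g, hg, -⟩ := existsUnique_sle (S := pairSys M (Subgroup.centralizer (S : Set G))) (b := a') (Q := S.subgroupOf (Subgroup.centralizer (S : Set G)) ⊔ Q') ha'
    (sup_le hS' hQ')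
  have hmap : (S.subgroupOf (Subgroup.centralizer (S : Set G)) ⊔ Q').map (Subgroup.centralizer (S : Set G)).subtype = S ⊔ Q'.map (Subgroup.centralizer (S : Set G)).subtype := by
    rw [Subgroup.map_sup, Subgroup.map_subgroupOf_eq_of_le hSL]
  obtain ⟨b, hb⟩ := exists_lifts_up (L := (Subgroup.centralizer (S : Set G))) (⟨S.subgroupOf (Subgroup.centralizer (S : Set G)) ⊔ Q', g⟩ : PairIdx M (Subgroup.centralizer (S : Set G)))
    (centralizer_anti (hmap.symm ▸ le_sup_left))
  obtain ⟨a₀, ha₀, hba⟩ := hb.sle hg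
  obtain rfl : a₀ = a := ha₀.unique hl
  rw [rkAt_eq ha' hg, ← hmap, hb.1, rkAt_eq_pair ha hba]
  have hh := blockRank_eq_of_lifts (p := p) hb
  exact hh

end General

variable {G : Type u} [Group G] [Fintype G] {B : Set (IrrCharacter G)} {P : Subgroup G}
  {e : Blk M (Subgroup.centralizer (P : Set G))}

/-- The traces of the local block at a subgroup fixed by the stabiliser, summed over `P`. -/
theorem local_sums (hM : IsPModular p M) (hm : IsMaximalBrauerPair p M B P e.1)
    (hab : ∀ x ∈ P, ∀ y ∈ P, x * y = y * x) {S : Subgroup G}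
    (hfix : stab (⟨P, e⟩ : PairIdx M G) ≤ Subgroup.centralizer (S : Set G))
    {f : Blk M (Subgroup.centralizer (S : Set G))}
    (hn : NSub (pairSys M G) p ⟨S, f⟩ ⟨P, e⟩) :
    ((Nat.card f.1 : ℂ) =
      ∑ v : P, (rkAt p (⟨P, e⟩ : PairIdx M G) (S ⊔ Subgroup.zpowers (v : G)) : ℂ) /
        ((orb (⟨P, e⟩ : PairIdx M G) v).card : ℂ)) ∧
    ∀ l : P →* ℂˣ, l ≠ 1 →
      (∀ t ∈ stab (⟨P, e⟩ : PairIdx M G), ∀ x y : P, t * (x : G) * t⁻¹ = (y : G) → l y = l x) →
      ∑ v : P, (l v : ℂ) *
        (rkAt p (⟨P, e⟩ : PairIdx M G) (S ⊔ Subgroup.zpowers (v : G)) : ℂ) /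
        ((orb (⟨P, e⟩ : PairIdx M G) v).card : ℂ) = 0 := by
  classical
  have hP : IsPGroup p P := hm.1.1.1
  obtain ⟨R', r, hl, hm', hab'⟩ := exists_local_maxPair hm hab hn
  haveI := Fintype.ofFinite (Subgroup.centralizer (S : Set G))
  obtain ⟨F, hF⟩ := exists_blockFS hm'
  let D : BlkStar.SD p M (Subgroup.centralizer (S : Set G)) :=
    { B := f, P := R', e := r, F := F, isPModular := hM, isFS := hF }
  let φ : R' ≃* P := (R'.equivMapOfInjective _
    (Subgroup.centralizer (S : Set G)).subtype_injective).trans (MulEquiv.subgroupCongr hl.1)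
  have hφ : ∀ v : R', ((φ v : P) : G) = ((v : Subgroup.centralizer (S : Set G)) : G) :=
    fun v => rfl
  have hrk : ∀ v : R', rkAt p (⟨R', r⟩ : PairIdx M (Subgroup.centralizer (S : Set G)))
      (Subgroup.zpowers (v : Subgroup.centralizer (S : Set G))) =
      rkAt p (⟨P, e⟩ : PairIdx M G) (S ⊔ Subgroup.zpowers ((φ v : P) : G)) := by
    intro v
    rw [rkAt_lifts hP hab hn.2.1 hl (Subgroup.zpowers_le.2 v.2), MonoidHom.map_zpowers, hφ]
    rfl
  have horb : ∀ v : R',
      (orb (⟨R', r⟩ : PairIdx M (Subgroup.centralizer (S : Set G))) v).card =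
        (orb (⟨P, e⟩ : PairIdx M G) (φ v)).card := by
    intro v
    refine Finset.card_equiv φ.toEquiv fun w => ?_
    rw [mem_orb, mem_orb]
    constructor
    · rintro ⟨t, ht, htv⟩
      exact ⟨t, (mem_stab_lifts hl t).1 ht, congrArg Subtype.val htv⟩
    · rintro ⟨t, ht, htv⟩
      exact ⟨⟨t, hfix ht⟩, (mem_stab_lifts hl ⟨t, hfix ht⟩).2 ht, Subtype.ext htv⟩
  refine ⟨?_, fun l hl1 hlinv => ?_⟩
  · rw [← φ.toEquiv.sum_comp]
    refine (card_eq_sum_rk D hab').trans (Finset.sum_congr rfl fun v _ => ?_)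
    show ((rkAt p (⟨R', r⟩ : PairIdx M (Subgroup.centralizer (S : Set G))) _ : ℂ)) / _ = _
    rw [hrk v, horb v]
    rfl
  · have htriv : D.Triv (l.comp φ.toMonoidHom) := triv_of_invariant D hab' _ fun t ht x y hxy =>
      hlinv t ((mem_stab_lifts hl t).1 ht) (φ x) (φ y) (congrArg Subtype.val hxy)
    have hne : l.comp φ.toMonoidHom ≠ 1 := by
      intro h
      refine hl1 (MonoidHom.ext fun x => ?_)
      have := DFunLike.congr_fun h (φ.symm x)
      simpa using this
    rw [← φ.toEquiv.sum_comp]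
    refine Eq.trans (Finset.sum_congr rfl fun v _ => ?_) (sum_mul_rk_eq_zero D hab' htriv hne)
    show _ = _ * ((rkAt p (⟨R', r⟩ : PairIdx M (Subgroup.centralizer (S : Set G))) _ : ℂ)) / _
    rw [hrk v, horb v]
    rfl

/-- A linear character of the defect group invariant under the stabiliser, separating a fixed
element from the centre. -/
theorem exists_invariant_char (hm : IsMaximalBrauerPair p M B P e.1)
    (hab : ∀ x ∈ P, ∀ y ∈ P, x * y = y * x) {u : G} (hu : u ∈ P) (huc : u ∉ Subgroup.center G)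
    (hfix : ∀ t ∈ stab (⟨P, e⟩ : PairIdx M G), t * u * t⁻¹ = u) :
    ∃ l : P →* ℂˣ, l ≠ 1 ∧ (∀ v : P, (v : G) ∈ Subgroup.center G → l v = 1) ∧
      ∀ t ∈ stab (⟨P, e⟩ : PairIdx M G), ∀ x y : P, t * (x : G) * t⁻¹ = (y : G) → l y = l x := by
  classical
  have hP : IsPGroup p P := hm.1.1.1
  let S := stab (⟨P, e⟩ : PairIdx M G)
  let ρ : S →* MulAut P := (Subgroup.normalizerMonoidHom P).comp
    (Subgroup.inclusion (stab_le_normalizer (⟨P, e⟩ : PairIdx M G)))
  have hρ : ∀ (t : S) (x : P), ((ρ t x : P) : G) = (t : G) * x * (t : G)⁻¹ := fun t x => rfl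
  have hker : ρ.ker = (Subgroup.centralizer (P : Set G)).subgroupOf S := by
    ext t
    rw [MonoidHom.mem_ker, Subgroup.mem_subgroupOf, Subgroup.mem_centralizer_iff]
    constructor
    · intro h x hx
      have h1 : (t : G) * x * (t : G)⁻¹ = x := by
        rw [← hρ t ⟨x, hx⟩, h]
        rfl
      exact (mul_inv_eq_iff_eq_mul.1 h1).symm
    · intro h
      refine MulEquiv.ext fun x => Subtype.ext ?_
      rw [hρ, ← h x x.2, mul_inv_cancel_right]
      rfl
  have hn : ¬ p ∣ Nat.card ρ.range := by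
    rw [← Subgroup.index_ker, hker]
    exact not_dvd_relIndex_stab hm hab
  have hcop : (Nat.card ρ.range).Coprime (orderOf (⟨u, hu⟩ : P)) := by
    obtain ⟨i, hi⟩ := (IsPGroup.iff_orderOf.1 hP) (⟨u, hu⟩ : P)
    rw [hi]
    exact (Nat.Coprime.pow_left i (((Fact.out : p.Prime).coprime_iff_not_dvd).2 hn)).symm
  obtain ⟨m, hm'⟩ := exists_pow_eq_self_of_coprime hcop
  have hK : (⟨u, hu⟩ : P) ^ Nat.card ρ.range ∉ (Subgroup.center G).subgroupOf P := by
    intro h
    refine huc ?_
    have h1 := pow_mem h m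
    rw [hm'] at h1
    exact h1
  haveI : Finite (P →* ℂˣ) := Char.monoidHom_complex_finite
  haveI := Fintype.ofFinite (P →* ℂˣ)
  obtain ⟨μ, hμ, hμu⟩ := AbWeight.exists_annih_apply_ne_one
    (fun a b : P => Subtype.ext (hab a a.2 b b.2)) ((Subgroup.center G).subgroupOf P) hK
  refine ⟨∏ α : ρ.range, μ.comp (α : MulAut P).toMonoidHom, ?_, ?_, ?_⟩
  · intro h
    refine hμu ?_
    have h1 := DFunLike.congr_fun h (⟨u, hu⟩ : P)
    rw [MonoidHom.finsetProd_apply, MonoidHom.one_apply] at h1
    rw [map_pow, ← h1, Nat.card_eq_fintype_card, ← Finset.card_univ, ← Finset.prod_const]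
    refine Finset.prod_congr rfl fun α _ => ?_
    obtain ⟨t, ht⟩ := α.2
    rw [MonoidHom.comp_apply]
    refine congrArg μ (Subtype.ext ?_)
    show u = (((α : MulAut P) ⟨u, hu⟩ : P) : G)
    rw [← ht, hρ]
    exact (hfix t t.2).symm
  · intro v hv
    rw [MonoidHom.finsetProd_apply]
    refine Finset.prod_eq_one fun α _ => ?_
    obtain ⟨t, ht⟩ := α.2
    rw [MonoidHom.comp_apply]
    refine hμ _ ?_
    show (((α : MulAut P) v : P) : G) ∈ Subgroup.center G
    rw [← ht, hρ, Subgroup.mem_center_iff.1 hv (t : G), mul_inv_cancel_right]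
    exact hv
  · intro t ht x y hxy
    have hy : ρ ⟨t, ht⟩ x = y := Subtype.ext ((hρ _ x).trans hxy)
    rw [MonoidHom.finsetProd_apply, MonoidHom.finsetProd_apply,
      ← Equiv.prod_comp (Equiv.mulRight (⟨ρ ⟨t, ht⟩, ⟨⟨t, ht⟩, rfl⟩⟩ : ρ.range))
        fun α : ρ.range => μ.comp (α : MulAut P).toMonoidHom x]
    refine Finset.prod_congr rfl fun α _ => ?_
    show μ ((α : MulAut P) y) = μ (((α : MulAut P) * ρ ⟨t, ht⟩) x)
    rw [MulAut.mul_apply, hy]

theorem centralizer_zpowers_lt {v : G} (hv : v ∉ Subgroup.center G) :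
    Nat.card (Subgroup.centralizer (Subgroup.zpowers v : Set G)) < Nat.card G := by
  refine lt_of_le_of_ne (Subgroup.card_le_card_group _) fun h => hv ?_
  have h1 : Subgroup.centralizer (Subgroup.zpowers v : Set G) = ⊤ :=
    Subgroup.eq_top_of_card_eq _ h
  refine Subgroup.mem_center_iff.2 fun g => ?_
  exact (Subgroup.mem_centralizer_iff.1 (h1.symm ▸ Subgroup.mem_top g) v
    (Subgroup.mem_zpowers v)).symm

theorem centralizer_sup_zpowers_of_center {Q : Subgroup G} {v : G} (hv : v ∈ Subgroup.center G) :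
    Subgroup.centralizer (Q : Set G) =
      Subgroup.centralizer ((Q ⊔ Subgroup.zpowers v : Subgroup G) : Set G) := by
  refine le_antisymm (fun y hy => ?_) (centralizer_anti le_sup_left)
  rw [Subgroup.mem_centralizer_iff]
  have h : Q ⊔ Subgroup.zpowers v ≤ Subgroup.centralizer ({y} : Set G) := by
    refine sup_le (fun q hq => ?_) (Subgroup.zpowers_le.2 ?_)
    · exact Subgroup.mem_centralizer_singleton_iff.2 (Subgroup.mem_centralizer_iff.1 hy q hq)
    · exact Subgroup.mem_centralizer_singleton_iff.2 (Subgroup.mem_center_iff.1 hv y).symm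
  exact fun x hx => Subgroup.mem_centralizer_singleton_iff.1 (h hx)

omit [Fintype G] in
/-- An element fixed by the stabiliser does not change the regular rank. -/
theorem rkAt_fixed [Finite G] (hM : IsPModular p M) (hm : IsMaximalBrauerPair p M B P e.1)
    (hab : ∀ x ∈ P, ∀ y ∈ P, x * y = y * x) {u : G} (hu : u ∈ P)
    (hfix : ∀ t ∈ stab (⟨P, e⟩ : PairIdx M G), t * u * t⁻¹ = u) :
    rkAt p (⟨P, e⟩ : PairIdx M G) (Subgroup.zpowers u) = rkAt p (⟨P, e⟩ : PairIdx M G) ⊥ := by
  induction hN : Nat.card G using Nat.strong_induction_on generalizing G with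
  | _ N ih =>
  subst hN
  classical
  haveI := Fintype.ofFinite G
  have hP : IsPGroup p P := hm.1.1.1
  have hcentre : ∀ {Q : Subgroup G} {v : G}, Q ≤ P → v ∈ P → v ∈ Subgroup.center G →
      rkAt p (⟨P, e⟩ : PairIdx M G) (Q ⊔ Subgroup.zpowers v) =
        rkAt p (⟨P, e⟩ : PairIdx M G) Q := fun hQ hv hvc =>
    (rkAt_eq_of_centralizer_eq (a := (⟨P, e⟩ : PairIdx M G)) hP hab le_sup_left
      (sup_le hQ (Subgroup.zpowers_le.2 hv)) (centralizer_sup_zpowers_of_center hvc)).symm
  by_cases huc : u ∈ Subgroup.center G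
  · have h := hcentre bot_le hu huc
    rwa [bot_sup_eq] at h
  -- the elements outside the centre do not see `u`
  have key : ∀ v ∈ P, v ∉ Subgroup.center G →
      rkAt p (⟨P, e⟩ : PairIdx M G) (Subgroup.zpowers u ⊔ Subgroup.zpowers v) =
        rkAt p (⟨P, e⟩ : PairIdx M G) (Subgroup.zpowers v) := by
    intro v hv hvc
    have hvP : Subgroup.zpowers v ≤ P := Subgroup.zpowers_le.2 hv
    have hPC := le_centralizer_of_abelian hab hvP
    obtain ⟨f, hn, -⟩ := existsUnique_nsub (pairSys M G) (b := (⟨P, e⟩ : PairIdx M G))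
      (Q := Subgroup.zpowers v) hP hvP (hPC.trans (Subgroup.centralizer_le_normalizer _))
    obtain ⟨R', r, hl, hm', hab'⟩ := exists_local_maxPair hm hab hn
    have huR : (⟨u, hPC hu⟩ : Subgroup.centralizer (Subgroup.zpowers v : Set G)) ∈ R' := by
      rw [← Subgroup.mem_map_iff_mem (Subgroup.centralizer _).subtype_injective, hl.1]
      exact hu
    have h := ih _ (centralizer_zpowers_lt hvc) hm' hab' huR
      (fun t ht => Subtype.ext (hfix t ((mem_stab_lifts hl t).1 ht))) rfl
    rw [rkAt_lifts (a := (⟨P, e⟩ : PairIdx M G)) hP hab hvP hl (Subgroup.zpowers_le.2 huR),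
      rkAt_lifts (a := (⟨P, e⟩ : PairIdx M G)) hP hab hvP hl bot_le, MonoidHom.map_zpowers,
      Subgroup.map_bot, sup_bot_eq, sup_comm] at h
    exact h
  -- the two traces of a suitable character
  obtain ⟨l, hl1, hlc, hlinv⟩ := exists_invariant_char hm hab hu huc hfix
  obtain ⟨F, hF⟩ := exists_blockFS hm
  let D : BlkStar.SD p M G :=
    { B := ⟨B, hm.1.2.1⟩, P := P, e := e, F := F, isPModular := hM, isFS := hF }
  have h1 := sum_mul_rk_eq_zero D hab (triv_of_invariant D hab l hlinv) hl1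
  have huP : Subgroup.zpowers u ≤ P := Subgroup.zpowers_le.2 hu
  obtain ⟨f, hn, -⟩ := existsUnique_nsub (pairSys M G) (b := (⟨P, e⟩ : PairIdx M G))
    (Q := Subgroup.zpowers u) hP huP
    ((le_centralizer_of_abelian hab huP).trans (Subgroup.centralizer_le_normalizer _))
  have hstab : stab (⟨P, e⟩ : PairIdx M G) ≤ Subgroup.centralizer (Subgroup.zpowers u : Set G) := by
    intro t ht
    rw [Brauer.centralizer_zpowers_eq, Subgroup.mem_centralizer_singleton_iff]
    exact mul_inv_eq_iff_eq_mul.1 (hfix t ht)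
  have h2 := (local_sums hM hm hab hstab hn).2 l hl1 hlinv
  set a : PairIdx M G := ⟨P, e⟩ with ha
  have h3 : ∑ v : P, (l v : ℂ) *
      ((rkAt p a (Subgroup.zpowers (v : G)) : ℂ) -
        (rkAt p a (Subgroup.zpowers u ⊔ Subgroup.zpowers (v : G)) : ℂ)) /
        ((orb a v).card : ℂ) = 0 := by
    simp only [mul_sub, sub_div, Finset.sum_sub_distrib]
    rw [h2, sub_zero]
    exact h1
  let x : ℂ := (rkAt p a ⊥ : ℂ) - (rkAt p a (Subgroup.zpowers u) : ℂ)
  rw [Finset.sum_congr rfl (g := fun v : P => if (v : G) ∈ Subgroup.center G then x else 0)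
    fun v _ => ?_] at h3
  · rw [Finset.sum_ite, Finset.sum_const, Finset.sum_const_zero, add_zero, nsmul_eq_mul,
      mul_eq_zero] at h3
    rcases h3 with h | h
    · exfalso
      rw [Nat.cast_eq_zero, Finset.card_eq_zero, Finset.filter_eq_empty_iff] at h
      exact h (Finset.mem_univ (1 : P)) (one_mem _)
    · exact_mod_cast (sub_eq_zero.1 h).symm
  by_cases hv : (v : G) ∈ Subgroup.center G
  · have horb : orb a v = {v} := by
      refine Finset.eq_singleton_iff_unique_mem.2 ⟨self_mem_orb (a := a) v, fun w hw => ?_⟩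
      obtain ⟨t, -, htv⟩ := mem_orb.1 hw
      refine Subtype.ext ?_
      rw [← htv, Subgroup.mem_center_iff.1 hv t, mul_inv_cancel_right]
    have e1 := hcentre (Q := ⊥) bot_le v.2 hv
    rw [bot_sup_eq] at e1
    rw [if_pos hv, horb, Finset.card_singleton, hlc v hv, e1, hcentre huP v.2 hv]
    simp [x]
  · rw [if_neg hv, key v v.2 hv, sub_self, mul_zero, zero_div]

/-- The regular rank and the number of characters, along an element fixed by the stabiliser. -/
theorem blockRank_and_card_eq (hM : IsPModular p M) (hm : IsMaximalBrauerPair p M B P e.1)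
    (hab : ∀ x ∈ P, ∀ y ∈ P, x * y = y * x) {u : G} (hu : u ∈ P)
    (hfix : ∀ t ∈ stab (⟨P, e⟩ : PairIdx M G), t * u * t⁻¹ = u)
    {f : Blk M (Subgroup.centralizer (Subgroup.zpowers u : Set G))}
    (hn : NSub (pairSys M G) p ⟨Subgroup.zpowers u, f⟩ ⟨P, e⟩) :
    blockRank p B = blockRank p f.1 ∧ Nat.card B = Nat.card f.1 := by
  classical
  have hP : IsPGroup p P := hm.1.1.1
  set a : PairIdx M G := ⟨P, e⟩ with ha
  refine ⟨?_, ?_⟩
  · obtain ⟨f₀, hf₀, -⟩ := existsUnique_sle (S := pairSys M G) (b := a) (Q := ⊥) hP bot_le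
    have h1 : rkAt p a (Subgroup.zpowers u) = blockRank p f.1 :=
      rkAt_eq hP (Relation.ReflTransGen.single hn)
    have hpB : PairOf (blockSysTop M) (pairSys M G) p (⟨B, hm.1.2.1⟩ : Blk M G) a :=
      (maxPair_of hm).1
    rw [← h1, rkAt_fixed hM hm hab hu hfix, rkAt_eq hP hf₀]
    exact (blockRank_eq_of_pairOf_bot (hf₀.pairOf_iff.1 hpB)).symm
  · have hstab : stab a ≤ Subgroup.centralizer (Subgroup.zpowers u : Set G) := by
      intro t ht
      rw [Brauer.centralizer_zpowers_eq, Subgroup.mem_centralizer_singleton_iff]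
      exact mul_inv_eq_iff_eq_mul.1 (hfix t ht)
    obtain ⟨F, hF⟩ := exists_blockFS hm
    let D : BlkStar.SD p M G :=
      { B := ⟨B, hm.1.2.1⟩, P := P, e := e, F := F, isPModular := hM, isFS := hF }
    have key : ∀ v : P, rkAt p a (Subgroup.zpowers u ⊔ Subgroup.zpowers (v : G)) =
        rkAt p a (Subgroup.zpowers (v : G)) := by
      intro v
      have hvP : Subgroup.zpowers (v : G) ≤ P := Subgroup.zpowers_le.2 v.2
      have hPC := le_centralizer_of_abelian hab hvP
      obtain ⟨g, hg, -⟩ := existsUnique_nsub (pairSys M G) (b := a)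
        (Q := Subgroup.zpowers (v : G)) hP hvP
        (hPC.trans (Subgroup.centralizer_le_normalizer _))
      obtain ⟨R', r, hl, hm', hab'⟩ := exists_local_maxPair hm hab hg
      have huR : (⟨u, hPC hu⟩ : Subgroup.centralizer (Subgroup.zpowers (v : G) : Set G)) ∈ R' := by
        rw [← Subgroup.mem_map_iff_mem (Subgroup.centralizer _).subtype_injective, hl.1]
        exact hu
      have h := rkAt_fixed hM hm' hab' huR
        (fun t ht => Subtype.ext (hfix t ((mem_stab_lifts hl t).1 ht)))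
      rw [rkAt_lifts (a := a) hP hab hvP hl (Subgroup.zpowers_le.2 huR),
        rkAt_lifts (a := a) hP hab hvP hl bot_le, MonoidHom.map_zpowers,
        Subgroup.map_bot, sup_bot_eq, sup_comm] at h
      exact h
    have h1 := card_eq_sum_rk D hab
    have h2 := (local_sums hM hm hab hstab hn).1
    have h3 : (Nat.card B : ℂ) = (Nat.card f.1 : ℂ) :=
      h1.trans ((Finset.sum_congr rfl fun v _ => by rw [← key v]).trans h2.symm)
    exact_mod_cast h3

end Cfsg.Agent.BlkWat
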